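import Cfsg.Agent.RootSub.QP.CentralProduct

/-!
Quadratic endomorphisms of a linear group without nontrivial normal `p`-subgroup: every class has
an invertible partner, and the components of the graph of invertible pairs commute.
-/

set_option autoImplicit false
set_option linter.unusedSimpArgs false
set_option linter.unusedSectionVars false

namespace Cfsg.Agent.FixedQuad

open Cfsg Cfsg.Agent.RootSub Cfsg.Agent.RootSub.QP

variable {k : Type*} [Field k] {M : Type*} [AddCommGroup M] [Module k M]

local notation "GLM" => LinearMap.GeneralLinearGroup k M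
local notation "EndM" => M →ₗ[k] M

/-- Conjugation of an endomorphism. -/
noncomputable def cc (g : GLM) (x : EndM) : EndM := (g : EndM) * x * ((g⁻¹ : GLM) : EndM)

theorem cc_def (g : GLM) (x : EndM) : cc g x = (g : EndM) * x * ((g⁻¹ : GLM) : EndM) := rfl

theorem cc_one (x : EndM) : cc (1 : GLM) x = x := by simp [cc]

theorem cc_mul (g h : GLM) (x : EndM) : cc (g * h) x = cc g (cc h x) := by
  simp only [cc, mul_inv_rev, Units.val_mul, mul_assoc]

theorem cc_inv_cc (g : GLM) (x : EndM) : cc g⁻¹ (cc g x) = x := by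
  rw [← cc_mul, inv_mul_cancel, cc_one]

theorem cc_cc_inv (g : GLM) (x : EndM) : cc g (cc g⁻¹ x) = x := by
  rw [← cc_mul, mul_inv_cancel, cc_one]

theorem cc_injective (g : GLM) : Function.Injective (cc g) :=
  Function.LeftInverse.injective (cc_inv_cc g)

theorem cc_map_mul (g : GLM) (x y : EndM) : cc g (x * y) = cc g x * cc g y := by
  simp only [cc, ← mul_assoc]
  rw [mul_assoc ((g : EndM) * x) _ (g : EndM), g.inv_mul, mul_one]

theorem cc_map_one (g : GLM) : cc g (1 : EndM) = 1 := by simp [cc]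

theorem cc_map_zero (g : GLM) : cc g (0 : EndM) = 0 := by simp [cc]

theorem cc_map_add (g : GLM) (x y : EndM) : cc g (x + y) = cc g x + cc g y := by
  simp only [cc, mul_add, add_mul]

theorem cc_map_sub (g : GLM) (x y : EndM) : cc g (x - y) = cc g x - cc g y := by
  simp only [cc, mul_sub, sub_mul]

theorem cc_map_neg (g : GLM) (x : EndM) : cc g (-x) = -cc g x := by
  simp only [cc, mul_neg, neg_mul]

theorem cc_map_smul (g : GLM) (c : k) (x : EndM) : cc g (c • x) = c • cc g x := by
  simp only [cc, mul_smul_comm, smul_mul_assoc]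

theorem cc_eq_self_iff (g : GLM) (x : EndM) : cc g x = x ↔ (g : EndM) * x = x * (g : EndM) :=
  Units.mul_inv_eq_iff_eq_mul g

theorem conj_qunit {x : EndM} (hx : x * x = 0) (g : GLM) :
    g * qunit x * g⁻¹ = qunit (cc g x) := qunit_conj hx g

variable [FiniteDimensional k M]
variable {G : Subgroup (LinearMap.GeneralLinearGroup k M)} {s t a : M →ₗ[k] M}

theorem qel_cc {g : GLM} (hg : g ∈ Subgroup.normalizer (G : Set GLM)) (h : QEl G s) :
    QEl G (cc g s) := by
  refine ⟨by rw [← cc_map_mul, h.1, cc_map_zero], fun c => ?_⟩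
  rw [← cc_map_smul, ← conj_qunit (smul_sq_zero h.1 c)]
  exact (Subgroup.mem_normalizer_iff.1 hg _).1 (h.2 c)

theorem minQ_cc {g : GLM} (hg : g ∈ Subgroup.normalizer (G : Set GLM)) (h : MinQ G s) :
    MinQ G (cc g s) := by
  refine h.of_rk_le (qel_cc hg h.1) (fun h0 => h.ne_zero ?_) (rk_conj g s).le
  rw [← cc_inv_cc g s, h0, cc_map_zero]

theorem classSpace_cc {g : GLM} (hg : g ∈ Subgroup.normalizer (G : Set GLM)) {x : EndM}
    (hx : x ∈ classSpace G s) : cc g x ∈ classSpace G (cc g s) := by
  refine ⟨qel_cc hg hx.1, ?_, ?_⟩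
  · rw [cc, cc, ker_conj, ker_conj, range_conj, ← Submodule.map_sup]
    exact Submodule.map_mono hx.2.1
  · rw [cc, cc, range_conj, range_conj]; exact Submodule.map_mono hx.2.2

theorem inv_cc (h : Inv s t) (g : GLM) : Inv (cc g s) (cc g t) := Inv.conj h g

theorem conn_cc {g : GLM} (hg : g ∈ Subgroup.normalizer (G : Set GLM)) (h : Conn G s t) :
    Conn G (cc g s) (cc g t) := by
  induction h with
  | refl => exact conn_refl _
  | tail _ h ih =>
    exact Relation.ReflTransGen.tail ih ⟨minQ_cc hg h.1, minQ_cc hg h.2.1, inv_cc h.2.2 g⟩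

theorem mem_comp_cc {g : GLM} (hg : g ∈ Subgroup.normalizer (G : Set GLM)) (h : t ∈ comp G a) :
    cc g t ∈ comp G (cc g a) := ⟨minQ_cc hg h.1, conn_cc hg h.2⟩

theorem le_normalizer_self {g : GLM} (hg : g ∈ G) : g ∈ Subgroup.normalizer (G : Set GLM) :=
  Subgroup.le_normalizer hg

/-- Every class has an invertible partner. -/
def Partners (G : Subgroup (LinearMap.GeneralLinearGroup k M)) : Prop :=
  ∀ z : M →ₗ[k] M, MinQ G z → ∃ y, MinQ G y ∧ Inv z y

/-- In characteristic `p` a unipotent group is a `p`-group. -/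
theorem isPGroup_of_isUnipotentOn (p : ℕ) [Fact p.Prime] [CharP k p] [Nontrivial M]
    {N : Subgroup GLM} (hN : IsUnipotentOn N) : IsPGroup p N := by
  obtain ⟨n, hn⟩ := hN
  haveI : CharP EndM p := charP_of_injective_algebraMap (algebraMap k EndM).injective p
  intro g
  refine ⟨n, Subtype.ext (Units.ext ?_)⟩
  have h1 := hn (List.replicate n (g : GLM)) (fun x hx => by
    rw [(List.mem_replicate.1 hx).2]; exact g.2) List.length_replicate
  simp [List.map_flatMap, List.flatMap_singleton', ← List.map_eq_flatMap, Function.comp_def] at h1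
  have h2 : n ≤ p ^ n := (Nat.lt_pow_self (Fact.out : p.Prime).one_lt).le
  have h3 := sub_pow_char_pow_of_commute (p := p) n (Commute.one_right ((g : GLM) : EndM))
  rw [one_pow, pow_eq_zero_of_le h2 h1] at h3
  rw [SubmonoidClass.coe_pow, Units.val_pow_eq_pow_val, OneMemClass.coe_one, Units.val_one]
  exact sub_eq_zero.1 h3.symm

variable (h2 : (2 : k) ≠ 0) (h3 : Nat.card k ≠ 3)

include h2 h3 in
/-- Every class has an invertible partner. -/
theorem partners_of_core (p : ℕ) [Fact p.Prime] [CharP k p]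
    (hcore : ∀ N : Subgroup GLM, N ≤ G → IsPGroup p N → (∀ g ∈ G, ∀ h ∈ N, g⁻¹ * h * g ∈ N) →
      N = ⊥) : Partners G := by
  intro z hz
  by_contra hno
  push Not at hno
  let W : Set (Subgroup (LinearMap.GeneralLinearGroup k M)) :=
    {A | ∃ g ∈ G, A = rootGroup G ((g : EndM) * z * ((g⁻¹ : GLM) : EndM))}
  have hWconj : ∀ A ∈ W, ∀ g ∈ G, conjBy A g ∈ W := by
    rintro _ ⟨h, hh, rfl⟩ g hg
    refine ⟨g * h, mul_mem hg hh, ?_⟩
    rw [conjBy_rootGroup _ hg]
    simp only [mul_inv_rev, Units.val_mul, mul_assoc]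
  have hWW : ∀ A ∈ W, ∀ B ∈ W, IsUnipotentOn (A ⊔ B) := by
    rintro _ ⟨g, hg, rfl⟩ _ ⟨h, hh, rfl⟩
    refine isUnipotentOn_of_not_inv h2 h3 (hz.conj hg) (hz.conj hh) fun hi => ?_
    have hgh : g⁻¹ * h ∈ G := mul_mem (inv_mem hg) hh
    refine hno _ (hz.conj hgh) ?_
    obtain ⟨i1, i2⟩ := hi
    simp only [range_conj, ker_conj] at i1 i2
    have hinj : Function.Injective ((g : GLM) : EndM) :=
      Function.LeftInverse.injective (inv_apply_apply g)
    have e : ∀ N : Submodule k M, (N.map ((g⁻¹ * h : GLM) : EndM)).map (g : EndM) = N.map (h : EndM) := by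
      intro N
      rw [← Submodule.map_comp, ← Module.End.mul_eq_comp, ← Units.val_mul, mul_inv_cancel_left]
    constructor <;> apply Submodule.map_injective_of_injective hinj <;>
      simp only [range_conj, ker_conj, Submodule.map_inf _ hinj, e, Submodule.map_bot]
    exacts [i1, i2]
  have hN : IsUnipotentOn (⨆ A ∈ W, A) := by
    refine isUnipotentOn_family hWW fun A hA B hB g hg => hWconj B hB g ?_
    obtain ⟨h, hh, rfl⟩ := hA
    exact rootGroup_le _ hg
  have hMne : Nontrivial M := by
    by_contra hM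
    haveI := not_nontrivial_iff_subsingleton.1 hM
    exact hz.ne_zero (LinearMap.ext fun v => Subsingleton.elim _ _)
  have hbot := hcore (⨆ A ∈ W, A) (iSup₂_le fun A hA => by
      obtain ⟨g, hg, rfl⟩ := hA; exact rootGroup_le _)
    (isPGroup_of_isUnipotentOn p hN) (fun g hg a ha => ?_)
  · refine rootGroup_ne_bot hz (eq_bot_iff.2 (hbot ▸ ?_))
    exact le_iSup₂ (f := fun (A : Subgroup GLM) (_ : A ∈ W) => A) (rootGroup G z)
      ⟨1, one_mem G, by simp⟩
  · have hle : (⨆ A ∈ W, A) ≤ conjBy (⨆ A ∈ W, A) g := by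
      refine iSup₂_le fun A hA => ?_
      have hA' := hWconj A hA g⁻¹ (inv_mem hg)
      intro x hx
      rw [mem_conjBy]
      refine le_iSup₂ (f := fun (A : Subgroup GLM) (_ : A ∈ W) => A) _ hA' ?_
      rw [mem_conjBy]; simpa [mul_assoc] using hx
    exact mem_conjBy.1 (hle ha)

variable (hP : Partners G) {b : M →ₗ[k] M}

include h2 h3 hP in
/-- Members of one class are connected. -/
theorem conn_class {x : EndM} (hs : MinQ G s) (hx : x ∈ classSpace G s) (h0 : x ≠ 0) :
    Conn G s x := by
  obtain ⟨hxm, hxk, hxr⟩ := hs.class_spec hx h0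
  obtain ⟨y, hy, hi⟩ := hP _ hs
  exact conn_two hs hy hxm hi ((inv_congr hxk hxr rfl rfl).2 hi).symm

include h2 h3 hP in
/-- The bracket of a pair which is neither invertible nor commuting is connected to the pair. -/
theorem conn_bracket (hs : MinQ G s) (ht : MinQ G t) (h : ¬ Inv s t) (hne : s * t ≠ t * s) :
    Conn G s (s * t - t * s) := by
  obtain ⟨hzm, -⟩ := z_spec h2 h3 hs ht h (sub_ne_zero.2 hne)
  have hsts := sts_eq_zero h2 h3 hs ht h
  have htst := sts_eq_zero h2 h3 ht hs fun hi => h hi.symm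
  have hp := hs.conjugate ht.neg
  have hm := hs.conjugate ht
  rw [show s + (-t * s - s * -t) - -t * s * -t = s + (s * t - t * s) by
    simp only [neg_mul, mul_neg, neg_neg, htst, sub_zero]; abel] at hp
  rw [show s + (t * s - s * t) - t * s * t = s - (s * t - t * s) by
    simp only [htst, sub_zero]; abel] at hm
  set z := s * t - t * s with hzdef
  have hzs : z * s = 0 := by
    rw [hzdef, sub_mul, hsts, mul_assoc t s s, hs.sq, mul_zero, sub_zero]
  have hsz : s * z = 0 := by
    rw [hzdef, mul_sub, ← mul_assoc, ← mul_assoc, hs.sq, zero_mul, hsts, sub_zero]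
  obtain ⟨y0, hy0, hi0⟩ := hP _ hzm
  obtain ⟨y, hy, hzyz, -⟩ := hi0.exists_partner h2 h3 hzm hy0
  have hyne : y ≠ 0 := fun h0 => hzm.ne_zero (by rw [← hzyz, h0, mul_zero, zero_mul])
  obtain ⟨hym, hyk, hyr⟩ := hy0.class_spec hy hyne
  have hi : Inv z y := (inv_congr rfl rfl hyk hyr).2 hi0
  by_cases hsy : Inv s y
  · exact conn_two hs hym hzm hsy hi.symm
  have hsys := sts_eq_zero h2 h3 hs hym hsy
  have hysy := sts_eq_zero h2 h3 hym hs fun hh => hsy hh.symm
  -- `s ± z` are joined to `z`
  have key : ∀ v : EndM, MinQ G (s + v) → (v = z ∨ v = -z) → Conn G (s + v) z := by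
    intro v hv hvz
    refine conn_two hv hym hzm (inv_of_ne_zero h2 h3 hv hym fun h0 => hzm.ne_zero ?_) hi.symm
    have a1 : ∀ x : EndM, x * y * s * y = 0 := fun x => by
      rw [show x * y * s * y = x * (y * s * y) by simp only [mul_assoc], hysy, mul_zero]
    have a2 : ∀ x : EndM, x * z * y * z = x * z := fun x => by
      rw [show x * z * y * z = x * (z * y * z) by simp only [mul_assoc], hzyz]
    have f1 := congrArg (fun x => z * y * x) h0
    have f2 := congrArg (fun x => x * y * z) h0
    rcases hvz with rfl | rfl <;>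
      simp only [mul_add, add_mul, neg_mul, mul_neg, neg_neg, ← mul_assoc, hsys, hzyz, a1, a2,
        mul_zero, zero_mul, zero_add, add_zero, neg_zero] at h0 f1 f2 <;>
      linear_combination (norm := abel) f1 + f2 - h0
  have k1 := key z hp (Or.inl rfl)
  have k2 := key (-z) (by rwa [← sub_eq_add_neg]) (Or.inr rfl)
  obtain ⟨w, hw, hsw⟩ := hP _ hs
  by_cases c1 : Inv (s + z) w
  · exact (conn_two hs hw hp hsw c1.symm).trans k1
  by_cases c2 : Inv (s + -z) w
  · exact (conn_two hs hw (by rwa [← sub_eq_add_neg]) hsw c2.symm).trans k2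
  -- otherwise `s` lies in the class of `z`
  have d1 := sts_eq_zero h2 h3 hp hw c1
  have d2 := sts_eq_zero h2 h3 (by rwa [← sub_eq_add_neg]) hw c2
  simp only [mul_add, add_mul, neg_mul, mul_neg, neg_neg] at d1 d2
  have d : s * w * s = -(z * w * z) := by
    have h' : (2 : k) • (s * w * s + z * w * z) = 0 := by
      rw [two_smul]; linear_combination (norm := abel) d1 + d2
    exact eq_neg_of_add_eq_zero_left ((smul_eq_zero.1 h').resolve_left h2)
  have hr := hsw.range_sts hs hw
  have hrz : LinearMap.range s ≤ LinearMap.range z := by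
    rw [← hr, d, LinearMap.range_neg, mul_assoc]
    exact LinearMap.range_comp_le_range _ _
  have hker : LinearMap.ker (s * w * s) = LinearMap.ker s := by
    refine (Submodule.eq_of_le_of_finrank_le (fun v hv => ?_) ?_).symm
    · simp [LinearMap.mem_ker.1 hv]
    · have h1 := LinearMap.finrank_range_add_finrank_ker s
      have h2' := LinearMap.finrank_range_add_finrank_ker (s * w * s)
      rw [hr] at h2'
      omega
  have hkz : LinearMap.ker z ≤ LinearMap.ker s := by
    intro v hv
    rw [← hker, d]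
    simp [LinearMap.mem_ker.1 hv]
  refine (conn_class h2 h3 hP hzm ⟨hs.1, sup_le hkz ?_, hrz⟩ hs.ne_zero).symm
  exact LinearMap.range_le_ker_iff.2 hsz

include h2 h3 hP in
/-- Different components commute. -/
theorem conn_of_not_commute (hs : MinQ G s) (ht : MinQ G t) (hne : s * t ≠ t * s) : Conn G s t := by
  by_cases hi : Inv s t
  · exact Relation.ReflTransGen.single ⟨hs, ht, hi⟩
  have hi' : ¬ Inv t s := fun h => hi h.symm
  have a1 := conn_bracket h2 h3 hP hs ht hi hne
  have a2 := conn_bracket h2 h3 hP ht hs hi' (Ne.symm hne)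
  obtain ⟨hzm, -⟩ := z_spec h2 h3 hs ht hi (sub_ne_zero.2 hne)
  have a3 := conn_class h2 h3 hP hzm (neg_mem (self_mem_classSpace hzm.1)) (neg_ne_zero.2 hzm.ne_zero)
  rw [neg_sub] at a3
  exact a1.trans (a3.trans a2.symm)

include h2 h3 hP in
theorem commute_of_not_conn (hs : MinQ G s) (ht : MinQ G t) (h : ¬ Conn G s t) : s * t = t * s :=
  by_contra fun hne => h (conn_of_not_commute h2 h3 hP hs ht hne)

include h2 h3 hP in
theorem commutator_compGroup (hne : ¬ Conn G a b) : ⁅compGroup G a, compGroup G b⁆ = ⊥ := by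
  rw [commutator_eq_bot_iff_forall]
  intro p hp q hq
  refine (commute_compGroup (fun x hx => ?_) p hp).symm
  refine (commute_compGroup (fun y hy => ?_) q hq).symm
  rw [qunit_commute_iff hx.1.sq hy.1.sq]
  exact commute_of_not_conn h2 h3 hP hx.1 hy.1 fun h => hne (hx.2.trans (h.trans hy.2.symm))

end Cfsg.Agent.FixedQuad
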