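import Mathlib

/-!
Squares in a space of units closed under `x ↦ x y x`.

In an algebra over a finite field of odd characteristic, let `B` be a subspace containing `1`,
closed under `x y x`, all of whose nonzero members are units. Then `x * x = y * y` forces
`y = x` or `y = -x`.
-/

set_option autoImplicit false
set_option linter.style.haveILetI false

namespace Cfsg.Agent.FixedQuad

open Polynomial

variable {K : Type*} [Field K] {R : Type*} [Ring R] [Algebra K R] [Finite R]

theorem eq_or_eq_neg_of_sq_eq (h2 : (2 : K) ≠ 0) (B : Submodule K R) (h1 : (1 : R) ∈ B)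
    (hU : ∀ x ∈ B, ∀ y ∈ B, x * y * x ∈ B) (hunit : ∀ x ∈ B, x ≠ 0 → IsUnit x)
    {x y : R} (hx : x ∈ B) (hy : y ∈ B) (h : x * x = y * y) : y = x ∨ y = -x := by
  classical
  have hsq : ∀ a ∈ B, a * a ∈ B := fun a ha => by simpa using hU a ha 1 h1
  have hanti : ∀ a ∈ B, ∀ b ∈ B, a * b + b * a ∈ B := by
    intro a ha b hb
    have := sub_mem (sub_mem (hsq _ (add_mem ha hb)) (hsq a ha)) (hsq b hb)
    convert this using 1
    noncomm_ring
  have hcomm : ∀ a ∈ B, ∀ b ∈ B, a * b = b * a → a * b ∈ B := by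
    intro a ha b hb hab
    have h' := B.smul_mem (2 : K)⁻¹ (hanti a ha b hb)
    rwa [← hab, ← two_smul K (a * b), smul_smul, inv_mul_cancel₀ h2, one_smul] at h'
  have hzero : ∀ a ∈ B, ∀ b : R, a * b = 0 → a = 0 ∨ b = 0 := by
    intro a ha b hab
    by_cases ha0 : a = 0
    · exact Or.inl ha0
    · exact Or.inr ((hunit a ha ha0).mul_right_eq_zero.1 hab)
  rcases eq_or_ne x 0 with rfl | hx0
  · rw [mul_zero] at h
    rcases hzero y hy y h.symm with h' | h' <;> exact Or.inl h'
  set S := x * x with hS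
  set J := x * y + y * x with hJ
  have hSx : S * x = x * S := by rw [hS, mul_assoc]
  have hSy : S * y = y * S := by rw [h, mul_assoc]
  have hJx : J * x = x * J := by
    rw [hJ, add_mul, mul_add, ← mul_assoc, ← mul_assoc, mul_assoc y x x, ← hS, ← hSy, add_comm]
  have hJy : J * y = y * J := by
    rw [hJ, add_mul, mul_add, ← mul_assoc, ← mul_assoc, mul_assoc x y y, ← h,
      hSx, add_comm]
  set L : Subalgebra K R := Algebra.adjoin K {S, J} with hL
  have hcx : ∀ a ∈ L, a * x = x * a ∧ a * y = y * a := by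
    intro a ha
    induction ha using Algebra.adjoin_induction with
    | mem a ha =>
      rcases ha with rfl | rfl
      exacts [⟨hSx, hSy⟩, ⟨hJx, hJy⟩]
    | algebraMap r => exact ⟨Algebra.commutes r x, Algebra.commutes r y⟩
    | add a b _ _ ha hb =>
      constructor <;> rw [add_mul, mul_add]
      exacts [by rw [ha.1, hb.1], by rw [ha.2, hb.2]]
    | mul a b _ _ ha hb =>
      exact ⟨by rw [mul_assoc, hb.1, ← mul_assoc, ha.1, mul_assoc],
        by rw [mul_assoc, hb.2, ← mul_assoc, ha.2, mul_assoc]⟩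
  have hcS : ∀ a ∈ L, a * S = S * a ∧ a * J = J * a := by
    intro a ha
    obtain ⟨e1, e2⟩ := hcx a ha
    have f1 : ∀ {u v : R}, a * u = u * a → a * v = v * a → a * (u * v) = u * v * a := by
      intro u v hu hv
      rw [← mul_assoc, hu, mul_assoc, hv, mul_assoc]
    refine ⟨f1 e1 e1, ?_⟩
    rw [hJ, mul_add, add_mul, f1 e1 e2, f1 e2 e1]
  have hLcomm : ∀ a ∈ L, ∀ b ∈ L, a * b = b * a := by
    intro a ha b hb
    induction hb using Algebra.adjoin_induction with
    | mem b hb =>
      rcases hb with rfl | rfl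
      exacts [(hcS a ha).1, (hcS a ha).2]
    | algebraMap r => exact (Algebra.commutes r a).symm
    | add b c _ _ hb hc => rw [mul_add, add_mul, hb, hc]
    | mul b c _ _ hb hc => rw [← mul_assoc, hb, mul_assoc, hc, mul_assoc]
  have hLB : ∀ a ∈ L, a ∈ B := by
    intro a ha
    induction ha using Algebra.adjoin_induction with
    | mem a ha =>
      rcases ha with rfl | rfl
      exacts [hsq x hx, hanti x hx y hy]
    | algebraMap r => rw [Algebra.algebraMap_eq_smul_one]; exact B.smul_mem r h1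
    | add a b _ _ ha hb => exact add_mem ha hb
    | mul a b ha' hb' ha hb => exact hcomm a ha b hb (hLcomm a ha' b hb')
  haveI : Nontrivial R := ⟨⟨x, 0, hx0⟩⟩
  letI : CommRing L :=
    { (inferInstance : Ring L) with mul_comm := fun a b => Subtype.ext (hLcomm a a.2 b b.2) }
  haveI : NoZeroDivisors L := ⟨fun {a b} hab => by
    rcases hzero (a : R) (hLB a a.2) (b : R) (congrArg Subtype.val hab) with h' | h'
    exacts [Or.inl (Subtype.ext h'), Or.inr (Subtype.ext h')]⟩
  haveI : IsDomain L := NoZeroDivisors.to_isDomain L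
  letI : Field L := (Finite.isField_of_domain L).toField
  haveI : Fintype L := Fintype.ofFinite L
  have h2L : (2 : L) ≠ 0 := by
    intro h'
    have h'' : (2 : R) = 0 := congrArg Subtype.val h'
    rw [← map_ofNat (algebraMap K R) 2, map_eq_zero_iff _ (algebraMap K R).injective] at h''
    exact h2 h''
  let s : L := ⟨S, Algebra.subset_adjoin (Or.inl rfl)⟩
  let j : L := ⟨J, Algebra.subset_adjoin (Or.inr rfl)⟩
  have hS0 : S ≠ 0 := fun h0 => hx0 (((hzero x hx x h0).elim id id))
  have hs0 : s ≠ 0 := fun h0 => hS0 (congrArg Subtype.val h0)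
  have hodd : Fintype.card L % 2 = 1 := by
    refine FiniteField.odd_card_of_char_ne_two fun hc => h2L ?_
    haveI := ringChar.charP L
    have h' := CharP.cast_eq_zero L (ringChar L)
    rwa [hc, Nat.cast_two] at h'
  obtain ⟨u, v, huv⟩ := FiniteField.exists_root_sum_quadratic
    (f := C s * X ^ 2 + C j * X + C s) (g := C (-1 : L) * X ^ 2 + C (0 : L) * X + C (0 : L))
    (degree_quadratic hs0) (degree_quadratic (neg_ne_zero.2 one_ne_zero)) hodd
  simp only [eval_add, eval_mul, eval_C, eval_pow, eval_X, neg_mul, one_mul, zero_mul,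
    add_zero] at huv
  have huv' : S * (u : R) ^ 2 + J * (u : R) + S = (v : R) ^ 2 := by
    have h' := congrArg Subtype.val (eq_neg_of_add_eq_zero_left huv)
    simpa [s, j] using h'
  obtain ⟨hux, huy⟩ := hcx _ u.2
  obtain ⟨hvx, hvy⟩ := hcx _ v.2
  obtain ⟨Y, hY⟩ : ∃ Y, Y = (u : R) * x + y := ⟨_, rfl⟩
  have hYB : Y ∈ B := hY ▸ add_mem (hcomm _ (hLB _ u.2) x hx hux) hy
  have hvY : (v : R) * Y = Y * (v : R) := by
    rw [hY, mul_add, add_mul, hvy, ← mul_assoc, hLcomm _ v.2 _ u.2, mul_assoc, hvx, mul_assoc]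
  have hYY : Y * Y = (v : R) ^ 2 := by
    rw [← huv']
    have e1 : (u : R) * x * ((u : R) * x) = S * (u : R) ^ 2 := by
      rw [(hcS _ (L.pow_mem u.2 2)).1.symm, pow_two, hS, mul_assoc, ← mul_assoc x, ← hux]
      simp only [mul_assoc]
    have e2 : (u : R) * x * y + y * ((u : R) * x) = J * (u : R) := by
      rw [← (hcS _ u.2).2, hJ, mul_add, ← mul_assoc y, ← huy, mul_assoc, mul_assoc]
    rw [hY, add_mul, mul_add, mul_add, e1, ← h]
    rw [← e2]
    abel
  have hfac : (Y - (v : R)) * (Y + (v : R)) = 0 := by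
    rw [sub_mul, mul_add, mul_add, hYY, pow_two, hvY]
    abel
  have hvB := hLB _ v.2
  have hYv : y = (v : R) - (u : R) * x ∨ y = -(v : R) - (u : R) * x := by
    rcases hzero _ (sub_mem hYB hvB) _ hfac with h' | h'
    · left; rw [← sub_eq_zero.1 h', hY]; abel
    · right; rw [← eq_neg_of_add_eq_zero_left h', hY]; abel
  have hxy : y * x = x * y := by
    have hux' : (u : R) * x * x = x * ((u : R) * x) := by rw [hux, mul_assoc, hux]
    rcases hYv with e | e <;> rw [e]
    · rw [sub_mul, mul_sub, hvx, hux']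
    · rw [sub_mul, mul_sub, neg_mul, mul_neg, hvx, hux']
  have hfac2 : (y - x) * (y + x) = 0 := by
    rw [sub_mul, mul_add, mul_add, hxy, ← h, hS]
    abel
  rcases hzero _ (sub_mem hy hx) _ hfac2 with h' | h'
  · exact Or.inl (sub_eq_zero.1 h')
  · exact Or.inr (eq_neg_of_add_eq_zero_left h')

end Cfsg.Agent.FixedQuad
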