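import Cfsg.Agent.FixedQuad.Conn
import Cfsg.Agent.FixedQuad.Squares

/-!
Pairs `x y x = x`, `y x y = y` of square zero endomorphisms and the action of the stabilizer of a
component on them.
-/

set_option autoImplicit false
set_option linter.unusedSimpArgs false
set_option linter.unusedSectionVars false
set_option linter.style.haveILetI false

namespace Cfsg.Agent.FixedQuad

open Cfsg Cfsg.Agent.RootSub Cfsg.Agent.RootSub.QP Cfsg.Agent.RootSub.SL2Gen

section Algebra

variable {k : Type*} [Field k] {M : Type*} [AddCommGroup M] [Module k M]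

local notation "GLM" => LinearMap.GeneralLinearGroup k M
local notation "EndM" => M →ₗ[k] M

/-- A pair of square zero endomorphisms `x y x = x`, `y x y = y`. -/
structure Pair2 (x y : M →ₗ[k] M) : Prop where
  xx : x * x = 0
  yy : y * y = 0
  xyx : x * y * x = x
  yxy : y * x * y = y

variable {x y y' : M →ₗ[k] M}

theorem Pair2.symm (h : Pair2 x y) : Pair2 y x := ⟨h.yy, h.xx, h.yxy, h.xyx⟩

theorem Pair2.cc (h : Pair2 x y) (g : GLM) : Pair2 (cc g x) (cc g y) := by
  constructor <;> simp only [← cc_map_mul, h.xx, h.yy, h.xyx, h.yxy, cc_map_zero]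

/-- The representation of `SL₂` given by a pair. -/
noncomputable def pairEnd (h : Pair2 x y) :
    Matrix.SpecialLinearGroup (Fin 2) k →* Module.End k M where
  toFun g := 1 - x * y - y * x + g 0 0 • (x * y) + g 0 1 • x + g 1 0 • y + g 1 1 • (y * x)
  map_one' := by simp; abel
  map_mul' g g' := by
    have e1 : ∀ v : EndM, v * x * x = 0 := fun v => by rw [mul_assoc, h.xx, mul_zero]
    have e2 : ∀ v : EndM, v * y * y = 0 := fun v => by rw [mul_assoc, h.yy, mul_zero]
    have e3 : ∀ v : EndM, v * x * y * x = v * x := fun v => by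
      rw [show v * x * y * x = v * (x * y * x) by simp only [mul_assoc], h.xyx]
    have e4 : ∀ v : EndM, v * y * x * y = v * y := fun v => by
      rw [show v * y * x * y = v * (y * x * y) by simp only [mul_assoc], h.yxy]
    simp only [Matrix.SpecialLinearGroup.coe_mul, Matrix.mul_apply, Fin.sum_univ_two, mul_add,
      add_mul, mul_sub, sub_mul, smul_mul_assoc, mul_smul_comm, one_mul, mul_one, ← mul_assoc,
      h.xx, h.yy, h.xyx, h.yxy, e1, e2, e3, e4, zero_mul, smul_zero, sub_zero, add_zero, zero_add,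
      smul_add, smul_sub]
    module

/-- The representation of `SL₂` given by a pair, as a group homomorphism. -/
noncomputable def pairHom (h : Pair2 x y) :
    Matrix.SpecialLinearGroup (Fin 2) k →* LinearMap.GeneralLinearGroup k M :=
  (pairEnd h).toHomUnits

theorem coe_pairHom (h : Pair2 x y) (g : Matrix.SpecialLinearGroup (Fin 2) k) :
    ((pairHom h g : GLM) : EndM) =
      1 - x * y - y * x + g 0 0 • (x * y) + g 0 1 • x + g 1 0 • y + g 1 1 • (y * x) := rfl

theorem pairHom_uu (h : Pair2 x y) (c : k) : pairHom h (uu c) = (qunit (c • x) : GLM) := by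
  apply Units.ext
  rw [coe_pairHom, coe_qunit (smul_sq_zero h.xx c)]
  simp only [coe_uu, Matrix.cons_val', Matrix.cons_val_zero, Matrix.cons_val_one,
    Matrix.cons_val_fin_one, Matrix.of_apply]
  module

theorem pairHom_vv (h : Pair2 x y) (c : k) : pairHom h (vv c) = (qunit (c • y) : GLM) := by
  apply Units.ext
  rw [coe_pairHom, coe_qunit (smul_sq_zero h.yy c)]
  simp only [coe_vv, Matrix.cons_val', Matrix.cons_val_zero, Matrix.cons_val_one,
    Matrix.cons_val_fin_one, Matrix.of_apply]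
  module

theorem pairHom_mem (h : Pair2 x y) {L : Subgroup GLM}
    (hL : ∀ c : k, qunit (c • x) ∈ L ∧ qunit (c • y) ∈ L) (g : Matrix.SpecialLinearGroup (Fin 2) k) :
    pairHom h g ∈ L := by
  have htop : L.comap (pairHom h) = ⊤ := eq_top_of_all
    (fun c => by rw [Subgroup.mem_comap, pairHom_uu]; exact (hL c).1)
    (fun c => by rw [Subgroup.mem_comap, pairHom_vv]; exact (hL c).2)
  exact (htop ▸ Subgroup.mem_top g : g ∈ L.comap (pairHom h))

theorem pairHom_cc (h : Pair2 x y) (a : GLM) (g : Matrix.SpecialLinearGroup (Fin 2) k) :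
    a * pairHom h g * a⁻¹ = pairHom (h.cc a) g := by
  apply Units.ext
  rw [Units.val_mul, Units.val_mul, coe_pairHom, coe_pairHom, ← cc_def]
  simp only [cc_map_add, cc_map_sub, cc_map_smul, cc_map_mul, cc_map_one]

theorem coe_pairHom_diag (h : Pair2 x y) (a : k) (ha : a ≠ 0) :
    ((pairHom h (diagSL a ha) : GLM) : EndM) = 1 + (a - 1) • (x * y) + (a⁻¹ - 1) • (y * x) := by
  rw [coe_pairHom]
  simp only [diagSL, Matrix.cons_val', Matrix.cons_val_zero, Matrix.cons_val_one,
    Matrix.cons_val_fin_one, Matrix.of_apply]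
  module

theorem coe_pairHom_diag_inv (h : Pair2 x y) (a : k) (ha : a ≠ 0) :
    (((pairHom h (diagSL a ha))⁻¹ : GLM) : EndM) =
      1 + (a⁻¹ - 1) • (x * y) + (a - 1) • (y * x) := by
  have e : (diagSL a ha)⁻¹ = diagSL a⁻¹ (inv_ne_zero ha) := by
    apply Subtype.ext
    rw [Matrix.SpecialLinearGroup.coe_inv]
    simp [diagSL, Matrix.adjugate_fin_two]
  rw [← map_inv, e, coe_pairHom_diag, inv_inv]

/-- A group containing the one parameter groups of two pairs `(x, y)`, `(x, y')` maps one to the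
other fixing `x`. -/
theorem exists_fix_map [Finite GLM] (h2 : (2 : k) ≠ 0) (h3 : (3 : k) ≠ 0) (h : Pair2 x y)
    (h' : Pair2 x y') {L : Subgroup GLM}
    (hL : ∀ c : k, qunit (c • x) ∈ L ∧ qunit (c • y) ∈ L ∧ qunit (c • y') ∈ L) :
    ∃ g ∈ L, cc g x = x ∧ cc g y = y' := by
  set τ := pairHom h (diagSL (2 : k) h2) with hτdef
  set τ' := pairHom h' (diagSL (2 : k) h2) with hτ'def
  have hτL : τ ∈ L := pairHom_mem h (fun c => ⟨(hL c).1, (hL c).2.1⟩) _
  have hτ'L : τ' ∈ L := pairHom_mem h' (fun c => ⟨(hL c).1, (hL c).2.2⟩) _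
  set d : k := (2 : k)⁻¹ with hd
  have hτ : ((τ : GLM) : EndM) = 1 + (2 - 1 : k) • (x * y) + (d - 1) • (y * x) :=
    coe_pairHom_diag h 2 h2
  have hτi : ((τ⁻¹ : GLM) : EndM) = 1 + (d - 1) • (x * y) + (2 - 1 : k) • (y * x) :=
    coe_pairHom_diag_inv h 2 h2
  have hτ' : ((τ' : GLM) : EndM) = 1 + (2 - 1 : k) • (x * y') + (d - 1) • (y' * x) :=
    coe_pairHom_diag h' 2 h2
  -- products
  have xx := h.xx
  have e1 : ∀ v : EndM, v * x * x = 0 := fun v => by rw [mul_assoc, xx, mul_zero]
  have e2 : ∀ v : EndM, v * y * y = 0 := fun v => by rw [mul_assoc, h.yy, mul_zero]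
  have e2' : ∀ v : EndM, v * y' * y' = 0 := fun v => by rw [mul_assoc, h'.yy, mul_zero]
  have e3 : ∀ v : EndM, v * x * y * x = v * x := fun v => by
    rw [show v * x * y * x = v * (x * y * x) by simp only [mul_assoc], h.xyx]
  have e3' : ∀ v : EndM, v * x * y' * x = v * x := fun v => by
    rw [show v * x * y' * x = v * (x * y' * x) by simp only [mul_assoc], h'.xyx]
  have e4 : ∀ v : EndM, v * y * x * y = v * y := fun v => by
    rw [show v * y * x * y = v * (y * x * y) by simp only [mul_assoc], h.yxy]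
  have e4' : ∀ v : EndM, v * y' * x * y' = v * y' := fun v => by
    rw [show v * y' * x * y' = v * (y' * x * y') by simp only [mul_assoc], h'.yxy]
  have hτx : (τ : EndM) * x = (2 : k) • x := by
    rw [hτ]
    simp only [add_mul, smul_mul_assoc, one_mul, ← mul_assoc, xx, h.xyx, e1, smul_zero, add_zero]
    module
  have hτix : ((τ⁻¹ : GLM) : EndM) * x = d • x := by
    rw [hτi]
    simp only [add_mul, smul_mul_assoc, one_mul, ← mul_assoc, xx, h.xyx, e1, smul_zero, add_zero]
    module
  have hxτ : x * (τ : EndM) = d • x := by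
    rw [hτ]
    simp only [mul_add, mul_smul_comm, mul_one, ← mul_assoc, xx, h.xyx, zero_mul, smul_zero,
      add_zero]
    module
  have hxτi : x * ((τ⁻¹ : GLM) : EndM) = (2 : k) • x := by
    rw [hτi]
    simp only [mul_add, mul_smul_comm, mul_one, ← mul_assoc, xx, h.xyx, zero_mul, smul_zero,
      add_zero]
    module
  have hτ'x : (τ' : EndM) * x = (2 : k) • x := by
    rw [hτ']
    simp only [add_mul, smul_mul_assoc, one_mul, ← mul_assoc, xx, h'.xyx, e1, smul_zero, add_zero]
    module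
  have hxτ' : x * (τ' : EndM) = d • x := by
    rw [hτ']
    simp only [mul_add, mul_smul_comm, mul_one, ← mul_assoc, xx, h'.xyx, zero_mul, smul_zero,
      add_zero]
    module
  have hd2 : d * 2 = 1 := inv_mul_cancel₀ h2
  let P : GLM → Prop := fun g => g ∈ L ∧ (g : EndM) * x = x ∧ x * (g : EndM) = x ∧
    (1 - x * y) * ((g : EndM) - 1) * (1 - y * x) = 0
  let U : Subgroup GLM :=
    { carrier := {g | P g}
      one_mem' := ⟨one_mem L, by simp, by simp, by simp⟩
      mul_mem' := by
        rintro g g' ⟨a1, a2, a3, a4⟩ ⟨b1, b2, b3, b4⟩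
        refine ⟨mul_mem a1 b1, ?_, ?_, ?_⟩
        · rw [Units.val_mul, mul_assoc, b2, a2]
        · rw [Units.val_mul, ← mul_assoc, a3, b3]
        · have key : ((g : EndM) - 1) * ((g' : EndM) - 1) * (1 - y * x) = 0 := by
            have n1 : ((g : EndM) - 1) * (x * y) = 0 := by
              rw [sub_mul, one_mul, ← mul_assoc, a2, sub_self]
            have h5 : ((g' : EndM) - 1) * (1 - y * x) =
                x * y * (((g' : EndM) - 1) * (1 - y * x)) := by
              rw [← sub_eq_zero, ← one_sub_mul, ← mul_assoc]; exact b4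
            rw [mul_assoc, h5, ← mul_assoc, n1, zero_mul]
          have e : ((g * g' : GLM) : EndM) - 1 =
              ((g : EndM) - 1) * ((g' : EndM) - 1) + ((g : EndM) - 1) + ((g' : EndM) - 1) := by
            rw [Units.val_mul]; noncomm_ring
          rw [e, mul_add, mul_add, add_mul, add_mul, a4, b4, mul_assoc, key, mul_zero, add_zero,
            add_zero]
      inv_mem' := by
        rintro g ⟨a1, a2, a3, a4⟩
        have hi : ((g⁻¹ : GLM) : EndM) * x = x := by
          conv_lhs => rw [← a2, ← mul_assoc, g.inv_mul, one_mul]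
        refine ⟨inv_mem a1, hi, ?_, ?_⟩
        · conv_lhs => rw [← a3, mul_assoc, g.mul_inv, mul_one]
        · have n1 : (((g⁻¹ : GLM) : EndM) - 1) * (x * y) = 0 := by
            rw [sub_mul, one_mul, ← mul_assoc, hi, sub_self]
          have h5 : ((g : EndM) - 1) * (1 - y * x) =
              x * y * (((g : EndM) - 1) * (1 - y * x)) := by
            rw [← sub_eq_zero, ← one_sub_mul, ← mul_assoc]; exact a4
          have key : (((g⁻¹ : GLM) : EndM) - 1) * ((g : EndM) - 1) * (1 - y * x) = 0 := by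
            rw [mul_assoc, h5, ← mul_assoc, n1, zero_mul]
          have e : ((g⁻¹ : GLM) : EndM) - 1 =
              -((((g⁻¹ : GLM) : EndM) - 1) * ((g : EndM) - 1)) - ((g : EndM) - 1) := by
            rw [mul_sub, sub_mul, g.inv_mul]; noncomm_ring
          rw [e, show ∀ a b c d : EndM, a * (-b - c) * d = -(a * (b * d)) - a * c * d from
            fun a b c d => by noncomm_ring, key, a4, mul_zero, neg_zero, sub_zero] }
  have hU : ∀ g, g ∈ U ↔ P g := fun g => Iff.rfl
  -- `τ` normalizes `U`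
  have hconj : ∀ g ∈ U, τ * g * τ⁻¹ ∈ U := by
    rintro g ⟨a1, a2, a3, a4⟩
    refine ⟨mul_mem (mul_mem hτL a1) (inv_mem hτL), ?_, ?_, ?_⟩
    · rw [Units.val_mul, Units.val_mul, mul_assoc, hτix, mul_smul_comm, mul_assoc, a2, hτx,
        smul_smul, hd2, one_smul]
    · rw [Units.val_mul, Units.val_mul, ← mul_assoc, ← mul_assoc, hxτ, smul_mul_assoc, a3,
        smul_mul_assoc, hxτi, smul_smul, hd2, one_smul]
    · have c1 : (1 - x * y) * (τ : EndM) = (τ : EndM) * (1 - x * y) := by
        rw [hτ]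
        simp only [mul_add, add_mul, mul_sub, sub_mul, smul_mul_assoc, mul_smul_comm, one_mul,
          mul_one, ← mul_assoc, h.xyx, h.yxy, xx, h.yy, e1, e2, e3, e4, zero_mul, smul_zero]
        module
      have c2 : ((τ⁻¹ : GLM) : EndM) * (1 - y * x) = (1 - y * x) * ((τ⁻¹ : GLM) : EndM) := by
        rw [hτi]
        simp only [mul_add, add_mul, mul_sub, sub_mul, smul_mul_assoc, mul_smul_comm, one_mul,
          mul_one, ← mul_assoc, h.xyx, h.yxy, xx, h.yy, e1, e2, e3, e4, zero_mul, smul_zero]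
        module
      have e : ((τ * g * τ⁻¹ : GLM) : EndM) - 1 =
          (τ : EndM) * ((g : EndM) - 1) * ((τ⁻¹ : GLM) : EndM) := by
        rw [Units.val_mul, Units.val_mul, mul_sub, sub_mul, mul_one, τ.mul_inv]
      rw [e, show ∀ a b c d e : EndM, a * (b * c * d) * e = a * b * c * (d * e) from
          fun _ _ _ _ _ => by simp only [mul_assoc], c1, c2,
        show ∀ a b c d e : EndM, a * b * c * (d * e) = a * (b * c * d) * e from
          fun _ _ _ _ _ => by simp only [mul_assoc], a4, mul_zero, zero_mul]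
  -- the two projections are polynomials in `τ`
  have hE : ((τ : EndM) - 1) * ((τ : EndM) - d • 1) = ((2 - 1) * (2 - d) : k) • (x * y) := by
    rw [hτ]
    simp only [mul_add, add_mul, mul_sub, sub_mul, smul_mul_assoc, mul_smul_comm, one_mul,
      mul_one, ← mul_assoc, h.xyx, h.yxy, xx, h.yy, e1, e2, e3, e4, zero_mul, smul_zero]
    module
  have hF : ((τ : EndM) - 1) * ((τ : EndM) - (2 : k) • 1) =
      ((d - 1) * (d - 2) : k) • (y * x) := by
    rw [hτ]
    simp only [mul_add, add_mul, mul_sub, sub_mul, smul_mul_assoc, mul_smul_comm, one_mul,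
      mul_one, ← mul_assoc, h.xyx, h.yxy, xx, h.yy, e1, e2, e3, e4, zero_mul, smul_zero]
    module
  have hE' : ((τ' : EndM) - 1) * ((τ' : EndM) - d • 1) =
      ((2 - 1) * (2 - d) : k) • (x * y') := by
    rw [hτ']
    simp only [mul_add, add_mul, mul_sub, sub_mul, smul_mul_assoc, mul_smul_comm, one_mul,
      mul_one, ← mul_assoc, h'.xyx, h'.yxy, xx, h'.yy, e1, e2', e3', e4', zero_mul, smul_zero]
    module
  have hF' : ((τ' : EndM) - 1) * ((τ' : EndM) - (2 : k) • 1) =
      ((d - 1) * (d - 2) : k) • (y' * x) := by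
    rw [hτ']
    simp only [mul_add, add_mul, mul_sub, sub_mul, smul_mul_assoc, mul_smul_comm, one_mul,
      mul_one, ← mul_assoc, h'.xyx, h'.yxy, xx, h'.yy, e1, e2', e3', e4', zero_mul, smul_zero]
    module
  have hne : (2 : k) - d ≠ 0 := by
    intro h0
    apply h3
    have : (2 - d) * 2 = (0 : k) := by rw [h0, zero_mul]
    rw [sub_mul, hd2] at this
    linear_combination this
  have hne1 : d - 1 ≠ 0 := by
    intro h0
    have : (d - 1) * 2 = (0 : k) := by rw [h0, zero_mul]
    rw [sub_mul, hd2] at this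
    exact one_ne_zero (by linear_combination -this : (1 : k) = 0)
  have cE : ((2 - 1) * (2 - d) : k) ≠ 0 := mul_ne_zero (by norm_num) hne
  have cF : ((d - 1) * (d - 2) : k) ≠ 0 := mul_ne_zero hne1 (by rw [← neg_sub]; exact neg_ne_zero.2 hne)
  -- no fixed point
  have hfix : ∀ g ∈ U, g * τ = τ * g → g = 1 := by
    rintro g ⟨-, a2, a3, a4⟩ hg
    have hc : Commute (g : EndM) (τ : EndM) := congrArg (fun u : GLM => (u : EndM)) hg
    have cg : ∀ r : k, Commute (g : EndM) (((τ : EndM) - 1) * ((τ : EndM) - r • 1)) := fun r =>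
      ((hc.sub_right (Commute.one_right _)).mul_right
        (hc.sub_right ((Commute.one_right _).smul_right r)))
    have gE : (g : EndM) * (x * y) = x * y * (g : EndM) := by
      have := cg d
      rw [hE, Commute, SemiconjBy, mul_smul_comm, smul_mul_assoc] at this
      exact smul_right_injective _ cE this
    have gF : (g : EndM) * (y * x) = y * x * (g : EndM) := by
      have := cg 2
      rw [hF, Commute, SemiconjBy, mul_smul_comm, smul_mul_assoc] at this
      exact smul_right_injective _ cF this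
    have b1 : x * y * (g : EndM) = x * y := by rw [← gE, ← mul_assoc, a2]
    have b2 : (g : EndM) * (y * x) = y * x := by rw [gF, mul_assoc, a3]
    apply Units.ext
    rw [Units.val_one, ← sub_eq_zero, ← a4]
    have b3 : (1 - x * y) * ((g : EndM) - 1) = (g : EndM) - 1 := by
      rw [sub_mul, one_mul, mul_sub, mul_one, b1, sub_self, sub_zero]
    rw [b3, mul_sub, mul_one, sub_mul, one_mul, b2, sub_self, sub_zero]
  let f : U → U := fun g => ⟨(g : GLM) * τ * (g : GLM)⁻¹ * τ⁻¹, by
    rw [show (g : GLM) * τ * (g : GLM)⁻¹ * τ⁻¹ = g * (τ * (g : GLM)⁻¹ * τ⁻¹) by group]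
    exact mul_mem g.2 (hconj _ (inv_mem g.2))⟩
  have hinj : Function.Injective f := by
    intro g g' he
    have he' : (g : GLM) * τ * (g : GLM)⁻¹ * τ⁻¹ = g' * τ * (g' : GLM)⁻¹ * τ⁻¹ :=
      congrArg Subtype.val he
    have h5 := hfix ((g' : GLM)⁻¹ * g) (mul_mem (inv_mem g'.2) g.2) (by
      calc (g' : GLM)⁻¹ * g * τ = (g' : GLM)⁻¹ * (g * τ * (g : GLM)⁻¹ * τ⁻¹) * τ * g := by group
        _ = _ := by rw [he']; group)
    exact Subtype.ext (inv_mul_eq_one.1 h5).symm
  have hmem : τ' * τ⁻¹ ∈ U := by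
    refine ⟨mul_mem hτ'L (inv_mem hτL), ?_, ?_, ?_⟩
    · rw [Units.val_mul, mul_assoc, hτix, mul_smul_comm, hτ'x, smul_smul, hd2, one_smul]
    · rw [Units.val_mul, ← mul_assoc, hxτ', smul_mul_assoc, hxτi, smul_smul, hd2, one_smul]
    · rw [Units.val_mul, hτ', hτi]
      simp only [mul_add, add_mul, mul_sub, sub_mul, smul_mul_assoc, mul_smul_comm, one_mul,
        mul_one, ← mul_assoc, h.xyx, h'.xyx, h.yxy, h'.yxy, xx, h.yy, h'.yy, e1, e2, e2', e3, e3',
        e4, e4', zero_mul, smul_zero, smul_add, smul_sub]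
      module
  obtain ⟨g, hg⟩ := (Finite.injective_iff_surjective.1 hinj) ⟨_, hmem⟩
  have hg' : (g : GLM) * τ * (g : GLM)⁻¹ = τ' := mul_right_cancel (congrArg Subtype.val hg)
  obtain ⟨a1, a2, a3, -⟩ := g.2
  have hgx : cc (g : GLM) x = x := (cc_eq_self_iff _ _).2 (a2.trans a3.symm)
  have hgτ : cc (g : GLM) (τ : EndM) = (τ' : EndM) := by
    rw [← hg', Units.val_mul, Units.val_mul]; rfl
  have hgE : x * cc (g : GLM) y = x * y' := by
    have := congrArg (cc (g : GLM)) hE
    rw [cc_map_mul, cc_map_sub, cc_map_sub, cc_map_smul, cc_map_smul, cc_map_one, hgτ, hE',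
      cc_map_mul, hgx] at this
    exact (smul_right_injective _ cE this).symm
  have hgF : cc (g : GLM) y * x = y' * x := by
    have := congrArg (cc (g : GLM)) hF
    rw [cc_map_mul, cc_map_sub, cc_map_sub, cc_map_smul, cc_map_smul, cc_map_one, hgτ, hF',
      cc_map_mul, hgx] at this
    exact (smul_right_injective _ cF this).symm
  refine ⟨g, a1, hgx, ?_⟩
  conv_lhs => rw [← h.yxy, cc_map_mul, cc_map_mul, hgx]
  rw [hgF, mul_assoc, hgE, ← mul_assoc, h'.yxy]

/-- The Weyl element of a pair. -/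
noncomputable def weyl (x y : M →ₗ[k] M) : LinearMap.GeneralLinearGroup k M :=
  qunit x * qunit (-y) * qunit x

/-- The Weyl element of `(x, y)` on the class of `y`. -/
theorem cc_weyl {z : M →ₗ[k] M} (h : Pair2 x y) (h1 : y * x * z = z) (h2' : z * x * y = z)
    (h4 : y * z = 0) (h5 : z * y = 0) : cc (weyl x y) z = -(x * z * x) := by
  rw [cc, weyl, mul_inv_rev, mul_inv_rev, Units.val_mul, Units.val_mul, Units.val_mul,
    Units.val_mul, coe_qunit h.xx, coe_qunit (neg_sq_zero h.yy), coe_qunit_inv h.xx,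
    coe_qunit_inv (neg_sq_zero h.yy)]
  have e1 : ∀ v : EndM, v * x * x = 0 := fun v => by rw [mul_assoc, h.xx, mul_zero]
  have e2 : ∀ v : EndM, v * y * x * z = v * z := fun v => by
    rw [show v * y * x * z = v * (y * x * z) by simp only [mul_assoc], h1]
  have e3 : ∀ v : EndM, v * z * x * y = v * z := fun v => by
    rw [show v * z * x * y = v * (z * x * y) by simp only [mul_assoc], h2']
  have e4 : ∀ v : EndM, v * y * z = 0 := fun v => by rw [mul_assoc, h4, mul_zero]
  have e5 : ∀ v : EndM, v * z * y = 0 := fun v => by rw [mul_assoc, h5, mul_zero]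
  simp only [mul_sub, sub_mul, mul_add, add_mul, one_mul, mul_one, ← mul_assoc, neg_mul, mul_neg,
    neg_neg, h.xx, h1, h2', h4, h5, e1, e2, e3, e4, e5, zero_mul, sub_zero, add_zero, zero_add,
    zero_sub, neg_zero]
  abel

end Algebra

section Orbit

variable {k : Type*} [Field k] {M : Type*} [AddCommGroup M] [Module k M] [FiniteDimensional k M]

local notation "GLM" => LinearMap.GeneralLinearGroup k M
local notation "EndM" => M →ₗ[k] M

variable {G : Subgroup (LinearMap.GeneralLinearGroup k M)} {s t a x y : M →ₗ[k] M}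
variable (h2 : (2 : k) ≠ 0) (h3 : Nat.card k ≠ 3) (hP : Partners G)

theorem Pair2.inv (h : Pair2 x y) (hx : MinQ G x) (hy : MinQ G y) : Inv x y :=
  inv_of_range_sts hx hy (by rw [h.xyx])

theorem mem_comp_of_inv (hx : x ∈ comp G a) (hy : MinQ G y) (h : Inv x y) : y ∈ comp G a :=
  ⟨hy, hx.2.trans (Relation.ReflTransGen.single ⟨hx.1, hy, h⟩)⟩

include h2 h3 hP in
theorem mem_comp_of_class (hx : x ∈ comp G a) (hy : y ∈ classSpace G x) (h0 : y ≠ 0) :
    y ∈ comp G a :=
  ⟨(hx.1.class_spec hy h0).1, hx.2.trans (conn_class h2 h3 hP hx.1 hy h0)⟩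

include h2 h3 hP in
theorem smul_qunit_mem (hx : x ∈ comp G a) (c : k) : qunit (c • x) ∈ compGroup G a := by
  rcases eq_or_ne c 0 with rfl | hc
  · rw [zero_smul, qunit_zero]; exact one_mem _
  · exact qunit_mem_compGroup (mem_comp_of_class h2 h3 hP hx
      (Submodule.smul_mem _ c (self_mem_classSpace hx.1.1)) (smul_ne_zero hc hx.1.ne_zero))

include h2 h3 in
theorem exists_pair_in_class (hs : MinQ G s) (ht : MinQ G t) (h : Inv s t) {z : EndM}
    (hz : z ∈ classSpace G s) (h0 : z ≠ 0) :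
    ∃ y ∈ classSpace G t, y ≠ 0 ∧ Pair2 z y := by
  obtain ⟨hzm, hzk, hzr⟩ := hs.class_spec hz h0
  obtain ⟨y, hy, e1, e2⟩ := ((inv_congr hzk hzr rfl rfl).2 h).exists_partner h2 h3 hzm ht
  exact ⟨y, hy, fun h' => h0 (by rw [← e1, h', mul_zero, zero_mul]),
    ⟨hzm.sq, hy.1.1, e1, e2⟩⟩

/-- Partners in one class are unique. -/
theorem partner_unique {y₁ y₂ : EndM} (hx : MinQ G x) (ht : MinQ G t) (h₁ : y₁ ∈ classSpace G t)
    (h₂ : y₂ ∈ classSpace G t) (p₁ : Pair2 x y₁) (p₂ : Pair2 x y₂) : y₁ = y₂ := by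
  by_contra hne
  have hd := sub_ne_zero.2 hne
  obtain ⟨hm, hk, hr⟩ := ht.class_spec (sub_mem h₁ h₂) hd
  have hy1 : y₁ ≠ 0 := fun h0 => hx.ne_zero (by rw [← p₁.xyx, h0, mul_zero, zero_mul])
  obtain ⟨hm1, hk1, hr1⟩ := ht.class_spec h₁ hy1
  have hi : Inv x (y₁ - y₂) :=
    (inv_congr rfl rfl (hk.trans hk1.symm) (hr.trans hr1.symm)).2 (p₁.inv hx hm1)
  have := hi.range_sts hx hm
  rw [mul_sub, sub_mul, p₁.xyx, p₂.xyx, sub_self, LinearMap.range_zero] at this
  exact hx.ne_zero (LinearMap.range_eq_bot.1 this.symm)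

theorem mul_left_fix {e : EndM} (hy : y * e = y) {z : EndM} (hz : LinearMap.ker y ≤ LinearMap.ker z) :
    z * e = z := by
  refine LinearMap.ext fun v => ?_
  have h : e v - v ∈ LinearMap.ker z := hz (by
    rw [LinearMap.mem_ker, map_sub, sub_eq_zero]; exact LinearMap.congr_fun hy v)
  rwa [LinearMap.mem_ker, map_sub, sub_eq_zero] at h

theorem mul_right_fix {f : EndM} (hy : f * y = y) {z : EndM}
    (hz : LinearMap.range z ≤ LinearMap.range y) : f * z = z := by
  refine LinearMap.ext fun v => ?_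
  obtain ⟨w, hw⟩ := hz (LinearMap.mem_range_self z v)
  show f (z v) = z v
  rw [← hw]; exact LinearMap.congr_fun hy w

/-- The Weyl element interchanges the classes. -/
theorem weyl_classes (hs : MinQ G s) (ht : MinQ G t) {z z' : EndM} (hz : z ∈ classSpace G s)
    (hz' : z' ∈ classSpace G t) (h0 : z ≠ 0) (h0' : z' ≠ 0) (h : Pair2 z z') :
    cc (weyl z z') z = -z' ∧ (∀ v ∈ classSpace G t, cc (weyl z z') v = -(z * v * z)) ∧
    (∀ v ∈ classSpace G s, cc (weyl z z') v ∈ classSpace G t) ∧
    (∀ v ∈ classSpace G t, cc (weyl z z') v ∈ classSpace G s) := by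
  obtain ⟨hzm, hzk, hzr⟩ := hs.class_spec hz h0
  obtain ⟨hzm', hzk', hzr'⟩ := ht.class_spec hz' h0'
  have hw : weyl z z' ∈ Subgroup.normalizer (G : Set GLM) :=
    le_normalizer_self (mul_mem (mul_mem hz.1.qunit_mem hz'.1.neg.qunit_mem) hz.1.qunit_mem)
  have hz1 : cc (weyl z z') z = -z' := weyl_conj h.xx h.yy h.xyx h.yxy
  have hform : ∀ v ∈ classSpace G t, cc (weyl z z') v = -(z * v * z) := by
    intro v hv
    have hv' : v ∈ classSpace G z' := (classSpace_congr hzk' hzr').symm ▸ hv
    refine cc_weyl h (mul_right_fix h.yxy hv'.2.2) ?_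
      (mul_eq_zero_of_mem (self_mem_classSpace hzm'.1) hv')
      (mul_eq_zero_of_mem hv' (self_mem_classSpace hzm'.1))
    rw [mul_assoc]
    exact mul_left_fix (by rw [← mul_assoc]; exact h.yxy) (le_sup_left.trans hv'.2.1)
  refine ⟨hz1, hform, fun v hv => ?_, fun v hv => ?_⟩
  · have := classSpace_cc hw (s := z) (x := v) ((classSpace_congr hzk hzr).symm ▸ hv)
    rwa [hz1, classSpace_congr (LinearMap.ker_neg z') (LinearMap.range_neg z'),
      classSpace_congr hzk' hzr'] at this
  · have := classSpace_cc hw (s := z') (x := v) ((classSpace_congr hzk' hzr').symm ▸ hv)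
    rwa [hform z' hz', h.xyx, classSpace_congr (LinearMap.ker_neg z) (LinearMap.range_neg z),
      classSpace_congr hzk hzr] at this

include h2 h3 in
theorem mul_mul_mem (hs : MinQ G s) (ht : MinQ G t) (h : Inv s t) {z v : EndM}
    (hz : z ∈ classSpace G s) (hv : v ∈ classSpace G t) : z * v * z ∈ classSpace G s := by
  rcases eq_or_ne z 0 with rfl | h0
  · simp
  obtain ⟨z', hz', h0', hp⟩ := exists_pair_in_class h2 h3 hs ht h hz h0
  obtain ⟨-, hform, -, hmap⟩ := weyl_classes hs ht hz hz' h0 h0' hp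
  have := hmap v hv
  rw [hform v hv] at this
  simpa using neg_mem this

include h2 h3 hP in
theorem cc_mem_comp {g : GLM} (hg : g ∈ compGroup G a) (hx : x ∈ comp G a) :
    cc g x ∈ comp G a := by
  have key : ∀ u ∈ comp G a, ∀ x ∈ comp G a, cc (qunit u) x ∈ comp G a := by
    intro u hu x hx
    have hn := le_normalizer_self (G := G) hu.1.1.qunit_mem
    refine ⟨minQ_cc hn hx.1, ?_⟩
    have h1 := conn_cc hn (hu.2.symm.trans hx.2)
    have hself : cc (qunit u : GLM) u = u := conj_eq_self hu.1.sq rfl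
    rw [hself] at h1
    exact hu.2.trans h1
  induction hg using Subgroup.closure_induction'' generalizing x with
  | mem g hg =>
    obtain ⟨u, hu, rfl⟩ := hg
    exact key u hu x hx
  | inv_mem g hg =>
    obtain ⟨u, hu, rfl⟩ := hg
    rw [qunit_inv hu.1.sq]
    exact key (-u) (mem_comp_of_class h2 h3 hP hu (neg_mem (self_mem_classSpace hu.1.1))
      (neg_ne_zero.2 hu.1.ne_zero)) x hx
  | one => rwa [cc_one]
  | mul g g' _ _ hg hg' => rw [cc_mul]; exact hg (hg' hx)

theorem cc_inv_mapsTo [Finite M] {g : GLM} {V : Submodule k (M →ₗ[k] M)}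
    (h : ∀ v ∈ V, cc g v ∈ V) {v : EndM} (hv : v ∈ V) : cc g⁻¹ v ∈ V := by
  haveI : Finite EndM := Finite.of_injective _ DFunLike.coe_injective
  let f : V → V := fun u => ⟨cc g u, h u u.2⟩
  obtain ⟨u, hu⟩ := Finite.injective_iff_surjective.1
    (show Function.Injective f from fun u u' he =>
      Subtype.ext (cc_injective g (congrArg Subtype.val he))) ⟨v, hv⟩
  have hu' : cc g (u : EndM) = v := congrArg Subtype.val hu
  rw [← hu', cc_inv_cc]; exact u.2

/-- The elements of `L` stabilizing two classes. -/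
noncomputable def stab2 [Finite M] (L : Subgroup (LinearMap.GeneralLinearGroup k M))
    (V W : Submodule k (M →ₗ[k] M)) : Subgroup (LinearMap.GeneralLinearGroup k M) where
  carrier := {h | h ∈ L ∧ (∀ v ∈ V, cc h v ∈ V) ∧ ∀ w ∈ W, cc h w ∈ W}
  one_mem' := ⟨one_mem L, fun v hv => by rwa [cc_one], fun v hv => by rwa [cc_one]⟩
  mul_mem' := fun {g h} hg hh => ⟨mul_mem hg.1 hh.1,
    fun v hv => by rw [cc_mul]; exact hg.2.1 _ (hh.2.1 v hv),
    fun v hv => by rw [cc_mul]; exact hg.2.2 _ (hh.2.2 v hv)⟩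
  inv_mem' := fun {g} hg => ⟨inv_mem hg.1, fun _ hv => cc_inv_mapsTo hg.2.1 hv,
    fun _ hv => cc_inv_mapsTo hg.2.2 hv⟩

include h2 h3 hP in
/-- The stabilizer of the two classes has at most two orbits' worth of elements. -/
theorem card_le_two_mul [Finite M] (hs : MinQ G s) (ht : MinQ G t) (h : Pair2 s t) :
    {z : EndM | z ∈ classSpace G s ∧ z ≠ 0}.ncard ≤
      2 * ((fun g => cc g s) '' (stab2 (compGroup G s) (classSpace G s) (classSpace G t) :
        Set GLM)).ncard := by
  classical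
  haveI : Finite EndM := Finite.of_injective _ DFunLike.coe_injective
  have hi := h.inv hs ht
  have hsc := self_mem_comp hs
  have htc := mem_comp_of_inv hsc ht hi
  set X := {z : EndM | z ∈ classSpace G s ∧ z ≠ 0} with hX
  set O := ((fun g => cc g s) '' (stab2 (compGroup G s) (classSpace G s) (classSpace G t) :
    Set GLM)) with hO
  let f : EndM → EndM := fun z => z * t * z
  have hmap : ∀ z ∈ X, f z ∈ O := by
    rintro z ⟨hz, h0⟩
    obtain ⟨z', hz', h0', hp⟩ := exists_pair_in_class h2 h3 hs ht hi hz h0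
    have hzc := mem_comp_of_class h2 h3 hP hsc hz h0
    have hzc' := mem_comp_of_class h2 h3 hP htc hz' h0'
    obtain ⟨-, hform, hsT, htS⟩ := weyl_classes hs ht hz hz' h0 h0' hp
    obtain ⟨he, -, hsT', htS'⟩ := weyl_classes hs ht (self_mem_classSpace hs.1)
      (self_mem_classSpace ht.1) hs.ne_zero ht.ne_zero h
    have hmemL : ∀ {u v : EndM}, u ∈ comp G s → v ∈ comp G s → weyl u v ∈ compGroup G s := by
      intro u v hu hv
      have hq : qunit u ∈ compGroup G s := qunit_mem_compGroup hu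
      refine mul_mem (mul_mem hq ?_) hq
      simpa using smul_qunit_mem h2 h3 hP hv (-1)
    refine ⟨weyl z z' * weyl s t, ⟨mul_mem (hmemL hzc hzc') (hmemL hsc htc), ?_, ?_⟩, ?_⟩
    · intro v hv; rw [cc_mul]; exact htS _ (hsT' v hv)
    · intro v hv; rw [cc_mul]; exact hsT _ (htS' v hv)
    · show cc (weyl z z' * weyl s t) s = _
      rw [cc_mul, he, cc_map_neg, hform t (self_mem_classSpace ht.1), neg_neg]
  -- the map to the endomorphisms of the range
  let ρ : classSpace G s →ₗ[k] Module.End k (LinearMap.range s) :=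
    { toFun := fun z => ((z : EndM) * t).restrict
        (p := LinearMap.range s) (q := LinearMap.range s)
        (fun v _ => z.2.2.2 (LinearMap.mem_range_self (z : EndM) (t v)))
      map_add' := fun a b => LinearMap.ext fun v => Subtype.ext (by simp)
      map_smul' := fun c a => LinearMap.ext fun v => Subtype.ext (by simp) }
  have hρ : ∀ (z : classSpace G s) (v : LinearMap.range s),
      ((ρ z v : LinearMap.range s) : M) = (z : EndM) (t (v : M)) := fun z v => rfl
  have hker : ∀ z ∈ classSpace G s, z * t * s = z := fun z hz => by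
    rw [mul_assoc]
    exact mul_left_fix (by rw [← mul_assoc]; exact h.xyx) (le_sup_left.trans hz.2.1)
  have hρinj : Function.Injective ρ := by
    intro a b hab
    apply Subtype.ext
    rw [← hker a a.2, ← hker b b.2]
    refine LinearMap.ext fun v => ?_
    exact congrArg Subtype.val (LinearMap.congr_fun hab ⟨s v, LinearMap.mem_range_self s v⟩)
  have hunit : ∀ z : classSpace G s, z ≠ 0 → IsUnit (ρ z) := by
    intro z hz
    have hz0 : (z : EndM) ≠ 0 := fun h0 => hz (Subtype.ext h0)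
    obtain ⟨-, hzk, -⟩ := hs.class_spec z.2 hz0
    have hinj : Function.Injective (ρ z) := by
      rw [injective_iff_map_eq_zero]
      rintro ⟨_, w, rfl⟩ hv
      have hv' : (z : EndM) (t (s w)) = 0 := congrArg Subtype.val hv
      have hw : (z : EndM) w = 0 := by
        rw [← hv']; exact (LinearMap.congr_fun (hker z z.2) w).symm
      exact Subtype.ext (LinearMap.mem_ker.1 (hzk.le hw))
    exact (Module.End.isUnit_iff _).2 ⟨hinj, LinearMap.injective_iff_surjective.1 hinj⟩
  have hone : (1 : Module.End k (LinearMap.range s)) ∈ LinearMap.range ρ := by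
    refine ⟨⟨s, self_mem_classSpace hs.1⟩, LinearMap.ext ?_⟩
    rintro ⟨_, w, rfl⟩
    exact Subtype.ext (LinearMap.congr_fun h.xyx w)
  haveI : Finite (Module.End k (LinearMap.range s)) :=
    Finite.of_injective _ DFunLike.coe_injective
  have key : ∀ z ∈ X, ∀ z' ∈ X, f z = f z' → z' = z ∨ z' = -z := by
    intro z hz z' hz' he
    have hsq : ρ ⟨z, hz.1⟩ * ρ ⟨z, hz.1⟩ = ρ ⟨z', hz'.1⟩ * ρ ⟨z', hz'.1⟩ := by
      refine LinearMap.ext fun v => Subtype.ext ?_
      exact LinearMap.congr_fun he (t (v : M))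
    have hU : ∀ a ∈ LinearMap.range ρ, ∀ b ∈ LinearMap.range ρ, a * b * a ∈ LinearMap.range ρ := by
      rintro _ ⟨a, rfl⟩ _ ⟨b, rfl⟩
      refine ⟨⟨(a : EndM) * (t * (b : EndM) * t) * (a : EndM),
        mul_mul_mem h2 h3 hs ht hi a.2
          (mul_mul_mem h2 h3 ht hs hi.symm (self_mem_classSpace ht.1) b.2)⟩, ?_⟩
      exact LinearMap.ext fun v => Subtype.ext rfl
    have hu : ∀ a ∈ LinearMap.range ρ, a ≠ 0 → IsUnit a := by
      rintro _ ⟨a, rfl⟩ ha
      exact hunit a fun h0 => ha (by rw [h0, map_zero])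
    rcases eq_or_eq_neg_of_sq_eq h2 (LinearMap.range ρ) hone hU hu
      (LinearMap.mem_range_self ρ ⟨z, hz.1⟩) (LinearMap.mem_range_self ρ ⟨z', hz'.1⟩) hsq with e | e
    · exact Or.inl (congrArg Subtype.val (hρinj e))
    · rw [← map_neg] at e
      exact Or.inr (congrArg Subtype.val (hρinj e))
  rw [Set.ncard_eq_toFinset_card X, Set.ncard_eq_toFinset_card O]
  refine (Finset.card_le_mul_card_image (f := f) _ 2 fun b hb => ?_).trans
    (Nat.mul_le_mul le_rfl (Finset.card_le_card ?_))
  · obtain ⟨z, hz, rfl⟩ := Finset.mem_image.1 hb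
    refine (Finset.card_le_card (t := {z, -z}) fun z' hz'' => ?_).trans Finset.card_le_two
    rw [Finset.mem_filter] at hz''
    rw [Set.Finite.mem_toFinset] at hz hz''
    rcases key z hz z' hz''.1 hz''.2.symm with rfl | rfl <;> simp
  · intro b hb
    obtain ⟨z, hz, rfl⟩ := Finset.mem_image.1 hb
    rw [Set.Finite.mem_toFinset] at hz ⊢
    exact hmap z hz

include h2 h3 hP in
/-- A component stabilizing element of odd order acts on a pair like an element of the component
group. -/
theorem exists_conj_pair [Finite M] (h3' : (3 : k) ≠ 0) (hs : MinQ G s) (ht : MinQ G t)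
    (h : Pair2 s t) {α : GLM} (hα : α ∈ Subgroup.normalizer (G : Set GLM))
    (hodd : Odd (orderOf α)) (hconn : Conn G s (cc α s)) :
    ∃ g ∈ compGroup G s, cc g s = cc α s ∧ cc g t = cc α t := by
  haveI : Finite EndM := Finite.of_injective _ DFunLike.coe_injective
  haveI : Finite GLM := Finite.of_injective _ Units.val_injective
  set L := compGroup G s with hL
  have hsc := self_mem_comp hs
  have hi := h.inv hs ht
  have has : cc α s ∈ comp G s := ⟨minQ_cc hα hs, hconn⟩
  obtain ⟨g1, hg1, hroot⟩ := exists_conj_of_mem_comp h2 h3 has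
  set b := g1⁻¹ * α with hb
  have hg1n : g1⁻¹ ∈ Subgroup.normalizer (G : Set GLM) :=
    le_normalizer_self (inv_mem (compGroup_le s hg1))
  have hbn : b ∈ Subgroup.normalizer (G : Set GLM) := mul_mem hg1n hα
  set x1 := cc b s with hx1
  have hx1s : x1 ∈ classSpace G s := by
    have hm := qunit_mem_rootGroup (self_mem_classSpace has.1.1)
    rw [hroot, mem_conjBy] at hm
    have e : g1⁻¹ * qunit (cc α s) * g1 = qunit x1 := by
      rw [hx1, hb, cc_mul, ← conj_qunit has.1.sq, inv_inv]
    rwa [e, mem_rootGroup, devMap_qunit (minQ_cc hbn hs).sq] at hm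
  have hx1m : MinQ G x1 := minQ_cc hbn hs
  have hx1c : x1 ∈ comp G s := mem_comp_of_class h2 h3 hP hsc hx1s hx1m.ne_zero
  have hy1m : MinQ G (cc b t) := minQ_cc hbn ht
  have hp1 : Pair2 x1 (cc b t) := h.cc b
  have hy1c : cc b t ∈ comp G s := mem_comp_of_inv hx1c hy1m (hp1.inv hx1m hy1m)
  obtain ⟨y', hy', hy0, hp'⟩ := exists_pair_in_class h2 h3 hs ht hi hx1s hx1m.ne_zero
  have hy'c : y' ∈ comp G s :=
    mem_comp_of_class h2 h3 hP (mem_comp_of_inv hsc ht hi) hy' hy0
  obtain ⟨g2, hg2, e1, e2⟩ := exists_fix_map h2 h3' hp1 hp' (L := L) fun c =>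
    ⟨smul_qunit_mem h2 h3 hP hx1c c, smul_qunit_mem h2 h3 hP hy1c c,
      smul_qunit_mem h2 h3 hP hy'c c⟩
  set g := g2 * g1⁻¹ with hg
  have hgL : g ∈ L := mul_mem hg2 (inv_mem hg1)
  set c := g * α with hc
  have hcb : c = g2 * b := by rw [hc, hg, hb, mul_assoc]
  have hcs : cc c s = x1 := by rw [hcb, cc_mul, ← hx1, e1]
  have hct : cc c t = y' := by rw [hcb, cc_mul, e2]
  have hcn : c ∈ Subgroup.normalizer (G : Set GLM) :=
    mul_mem (le_normalizer_self (compGroup_le s hgL)) hα
  -- `α` normalizes `L`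
  have hαL : ∀ u ∈ L, α * u * α⁻¹ ∈ L := by
    intro u hu
    induction hu using Subgroup.closure_induction with
    | mem u hu =>
      obtain ⟨v, hv, rfl⟩ := hu
      rw [conj_qunit hv.1.sq]
      exact qunit_mem_compGroup ⟨minQ_cc hα hv.1, hconn.trans (conn_cc hα hv.2)⟩
    | one => simp
    | mul u v _ _ hu hv =>
      rw [show α * (u * v) * α⁻¹ = α * u * α⁻¹ * (α * v * α⁻¹) by group]
      exact mul_mem hu hv
    | inv u _ hu =>
      rw [show α * u⁻¹ * α⁻¹ = (α * u * α⁻¹)⁻¹ by group]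
      exact inv_mem hu
  have hcL : ∀ u ∈ L, c * u * c⁻¹ ∈ L := by
    intro u hu
    rw [show c * u * c⁻¹ = g * (α * u * α⁻¹) * g⁻¹ by rw [hc]; group]
    exact mul_mem (mul_mem hgL (hαL u hu)) (inv_mem hgL)
  have hcpow : ∀ n : ℕ, c ^ n * (α ^ n)⁻¹ ∈ L := by
    intro n
    induction n with
    | zero => simp
    | succ n ih =>
      rw [show c ^ (n + 1) * (α ^ (n + 1))⁻¹ = g * (α * (c ^ n * (α ^ n)⁻¹) * α⁻¹) by
        rw [pow_succ', pow_succ', hc]; group]
      exact mul_mem hgL (hαL _ ih)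
  set H := stab2 L (classSpace G s) (classSpace G t) with hH
  have hcS : ∀ v ∈ classSpace G s, cc c v ∈ classSpace G s := fun v hv => by
    have := classSpace_cc hcn hv
    rwa [hcs, hs.classSpace_eq hx1s hx1m.ne_zero] at this
  have hcT : ∀ v ∈ classSpace G t, cc c v ∈ classSpace G t := fun v hv => by
    have := classSpace_cc hcn hv
    rwa [hct, ht.classSpace_eq hy' hy0] at this
  have hnorm : ∀ u ∈ H, c * u * c⁻¹ ∈ H := fun u hu =>
    ⟨hcL u hu.1, fun v hv => by
      rw [cc_mul, cc_mul]; exact hcS _ (hu.2.1 _ (cc_inv_mapsTo hcS hv)),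
      fun v hv => by
      rw [cc_mul, cc_mul]; exact hcT _ (hu.2.2 _ (cc_inv_mapsTo hcT hv))⟩
  set X := {z : EndM | z ∈ classSpace G s ∧ z ≠ 0}
  set O := (fun u => cc u s) '' (H : Set GLM) with hO
  suffices hx : x1 ∈ O by
    obtain ⟨u, hu, hus⟩ := hx
    have hus' : cc u s = x1 := hus
    have hut : cc u t = y' := partner_unique hx1m ht (hu.2.2 t (self_mem_classSpace ht.1)) hy'
      (hus' ▸ h.cc u) hp'
    refine ⟨g⁻¹ * u, mul_mem (inv_mem hgL) hu.1, ?_, ?_⟩
    · rw [cc_mul, hus', ← hcs, hc, cc_mul, cc_inv_cc]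
    · rw [cc_mul, hut, ← hct, hc, cc_mul, cc_inv_cc]
  by_contra hx1O
  have hOX : O ⊆ X := by
    rintro _ ⟨u, hu, rfl⟩
    exact ⟨hu.2.1 _ (self_mem_classSpace hs.1),
      fun h0 => hs.ne_zero (cc_injective u (h0.trans (cc_map_zero u).symm))⟩
  set cO := cc c '' O with hcO
  have hcOX : cO ⊆ X := by
    rintro _ ⟨v, hv, rfl⟩
    exact ⟨hcS v (hOX hv).1, fun h0 => (hOX hv).2 (cc_injective c (h0.trans (cc_map_zero c).symm))⟩
  have hdisj : Disjoint O cO := by
    rw [Set.disjoint_left]
    rintro _ ⟨u, hu, rfl⟩ ⟨_, ⟨w, hw, rfl⟩, he⟩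
    apply hx1O
    refine ⟨(c * w * c⁻¹)⁻¹ * u, mul_mem (inv_mem (hnorm w hw)) hu, ?_⟩
    have he' : cc c (cc w s) = cc u s := he
    show cc ((c * w * c⁻¹)⁻¹ * u) s = x1
    rw [cc_mul, ← he', ← cc_mul, ← cc_mul, ← hcs]
    congr 1; group
  have hall : O ∪ cO = X := by
    refine Set.eq_of_subset_of_ncard_le (Set.union_subset hOX hcOX) ?_ (Set.toFinite _)
    rw [Set.ncard_union_eq hdisj, Set.ncard_image_of_injective O (cc_injective c), ← two_mul]
    exact card_le_two_mul h2 h3 hP hs ht h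
  have hcc : cc (c * c) s ∈ O := by
    have hx : cc (c * c) s ∈ X := by
      rw [cc_mul]
      exact ⟨hcS _ (hcs ▸ hx1s), fun h0 => hx1m.ne_zero
        (hcs ▸ cc_injective c (h0.trans (cc_map_zero c).symm))⟩
    rw [← hall] at hx
    rcases hx with hx | ⟨v, hv, he⟩
    · exact hx
    · have he' : cc c v = cc c (cc c s) := he.trans (cc_mul c c s)
      exact absurd ((cc_injective c he').trans hcs ▸ hv) hx1O
  have heven : ∀ j : ℕ, cc (c ^ (2 * j)) s ∈ O := by
    intro j
    induction j with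
    | zero => exact ⟨1, one_mem H, by simp [cc_one]⟩
    | succ j ih =>
      obtain ⟨u, hu, he⟩ := ih
      obtain ⟨w, hw, he'⟩ := hcc
      have he1 : cc u s = cc (c ^ (2 * j)) s := he
      have he2 : cc w s = cc (c * c) s := he'
      refine ⟨c * (c * u * c⁻¹) * c⁻¹ * w, mul_mem (hnorm _ (hnorm u hu)) hw, ?_⟩
      show cc _ s = _
      rw [cc_mul, he2, ← cc_mul, show c * (c * u * c⁻¹) * c⁻¹ * (c * c) = c * c * u by group,
        cc_mul, he1, ← cc_mul, Nat.mul_succ, add_comm (2 * j), pow_add, pow_two]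
  obtain ⟨j, hj⟩ := hodd
  obtain ⟨u, hu, he⟩ := heven j
  have he1 : cc u s = cc (c ^ (2 * j)) s := he
  refine Set.disjoint_left.1 hdisj (?_ : cc (c ^ orderOf α) s ∈ O) ?_
  · refine ⟨c ^ orderOf α, ⟨?_, ?_, ?_⟩, rfl⟩
    · have := hcpow (orderOf α)
      rwa [pow_orderOf_eq_one, inv_one, mul_one] at this
    · intro v hv
      clear he he1 hu hj
      induction orderOf α generalizing v with
      | zero => simpa [cc_one] using hv
      | succ n ih => rw [pow_succ', cc_mul]; exact hcS _ (ih v hv)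
    · intro v hv
      clear he he1 hu hj
      induction orderOf α generalizing v with
      | zero => simpa [cc_one] using hv
      | succ n ih => rw [pow_succ', cc_mul]; exact hcT _ (ih v hv)
  · refine ⟨cc u s, ⟨u, hu, rfl⟩, ?_⟩
    rw [he1, ← cc_mul, hj, ← pow_succ']

end Orbit

end Cfsg.Agent.FixedQuad
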