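import Cfsg.Agent.RootSub.QP.Quasisimple
import Cfsg.Prelude.Def_LocalEven

/-! A nontrivial image of `SL₂(p)` in the image of a group gives a `PSL₂(p)` section. -/

set_option autoImplicit false
set_option linter.style.haveILetI false

namespace Cfsg.Agent.FixedQuad

open Cfsg.Agent.RootSub.SL2Gen Cfsg.Agent.RootSub.QP

variable {p : ℕ} [Fact p.Prime]

local notation "SLp" => Matrix.SpecialLinearGroup (Fin 2) (ZMod p)

theorem uu_nsmul (n : ℕ) (r : ZMod p) : (uu r : SLp) ^ n = uu ((n : ZMod p) * r) := by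
  induction n with
  | zero => simp [uu_zero]
  | succ n ih => rw [pow_succ, ih, uu_add, Nat.cast_succ, add_mul, one_mul]

/-- A normal subgroup of `SL₂(p)` missing `uu 1` is central. -/
theorem le_center_of_uu_notMem (hp5 : 5 ≤ p) {N : Subgroup SLp} (hN : N.Normal) (h : uu 1 ∉ N) :
    N ≤ Subgroup.center SLp := by
  have hsmall : ∀ n : ℕ, 0 < n → n < 5 → (n : ZMod p) ≠ 0 := fun n h0 hn h' =>
    Nat.not_dvd_of_pos_of_lt h0 (hn.trans_le hp5) ((ZMod.natCast_eq_zero_iff n p).1 h')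
  haveI hs : IsSimpleGroup (SLp ⧸ Subgroup.center SLp) :=
    Matrix.ProjectiveSpecialLinearGroup.rank_two_simple (by rw [Nat.card_zmod]; omega)
  rcases (hN.map _ (QuotientGroup.mk'_surjective (Subgroup.center SLp))).eq_bot_or_eq_top with h0 | h0
  · rwa [Subgroup.map_eq_bot_iff, QuotientGroup.ker_mk'] at h0
  exfalso
  apply h
  have hall : ∀ g : SLp, ∃ k ∈ N, k⁻¹ * g ∈ Subgroup.center SLp := by
    intro g
    obtain ⟨k, hk, he⟩ : (QuotientGroup.mk' (Subgroup.center SLp) g) ∈ N.map _ :=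
      h0 ▸ Subgroup.mem_top _
    exact ⟨k, hk, QuotientGroup.eq.1 he⟩
  have h2 : (2 : ZMod p) ≠ 0 := by exact_mod_cast hsmall 2 (by omega) (by omega)
  have h3 : (3 : ZMod p) ≠ 0 := by exact_mod_cast hsmall 3 (by omega) (by omega)
  obtain ⟨k1, hk1, z1⟩ := hall (diagSL 2 h2)
  have hcomm : diagSL (2 : ZMod p) h2 * uu 1 * (diagSL 2 h2)⁻¹ * (uu 1)⁻¹ ∈ N := by
    set z := k1⁻¹ * diagSL (2 : ZMod p) h2 with hz
    have e : diagSL (2 : ZMod p) h2 = k1 * z := by rw [hz, mul_inv_cancel_left]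
    rw [e, show k1 * z * uu (1 : ZMod p) * (k1 * z)⁻¹ * (uu (1 : ZMod p))⁻¹ =
      k1 * (z * uu (1 : ZMod p) * z⁻¹) * k1⁻¹ * (uu (1 : ZMod p))⁻¹ by group,
      ← (Subgroup.mem_center_iff.1 z1 (uu (1 : ZMod p))), mul_inv_cancel_right,
      show k1 * uu (1 : ZMod p) * k1⁻¹ * (uu (1 : ZMod p))⁻¹ =
      k1 * (uu (1 : ZMod p) * k1⁻¹ * (uu (1 : ZMod p))⁻¹) by group]
    exact mul_mem hk1 (hN.conj_mem _ (inv_mem hk1) _)
  rw [diagSL_conj, uu_inv, uu_add] at hcomm
  have := pow_mem hcomm ((3 : ZMod p)⁻¹).val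
  rwa [uu_nsmul, ZMod.natCast_zmod_val, show (2 : ZMod p) * 2 * 1 + -1 = 3 by ring,
    inv_mul_cancel₀ h3] at this

theorem involves_psl (hp5 : 5 ≤ p) {C Γ : Type*} [Group C] [Group Γ] (f : C →* Γ) (φ : SLp →* Γ)
    (hle : ∀ g, φ g ∈ f.range) (h1 : φ (uu 1) ≠ 1) {F : Type*} [Field F] [Fintype F]
    (hF : Fintype.card F = p) :
    Cfsg.Involves (Matrix.ProjectiveSpecialLinearGroup (Fin 2) F) C := by
  let e := ZMod.ringEquivOfPrime F (Fact.out : p.Prime) hF
  let j : SLp →* Matrix.SpecialLinearGroup (Fin 2) F :=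
    Matrix.SpecialLinearGroup.map e.toRingHom
  have hj : Function.Bijective j := by
    refine ⟨fun g g' hg => sl_ext ?_ ?_ ?_ ?_, fun g => ⟨Matrix.SpecialLinearGroup.map
      e.symm.toRingHom g, sl_ext ?_ ?_ ?_ ?_⟩⟩
    case refine_1 => exact e.injective (congrArg (fun x : Matrix.SpecialLinearGroup (Fin 2) F => x 0 0) hg)
    case refine_2 => exact e.injective (congrArg (fun x : Matrix.SpecialLinearGroup (Fin 2) F => x 0 1) hg)
    case refine_3 => exact e.injective (congrArg (fun x : Matrix.SpecialLinearGroup (Fin 2) F => x 1 0) hg)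
    case refine_4 => exact e.injective (congrArg (fun x : Matrix.SpecialLinearGroup (Fin 2) F => x 1 1) hg)
    all_goals simp [j]
  let χ : SLp →* Matrix.ProjectiveSpecialLinearGroup (Fin 2) F :=
    (QuotientGroup.mk' (Subgroup.center (Matrix.SpecialLinearGroup (Fin 2) F))).comp j
  have hχs : Function.Surjective χ := (QuotientGroup.mk'_surjective _).comp hj.2
  have hker : φ.rangeRestrict.ker ≤ χ.ker := by
    intro g hg
    rw [MonoidHom.ker_rangeRestrict] at hg
    have hc := le_center_of_uu_notMem hp5 (MonoidHom.normal_ker φ)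
      (fun h => h1 (MonoidHom.mem_ker.1 h)) hg
    refine (QuotientGroup.eq_one_iff _).2 (Subgroup.mem_center_iff.2 fun x => ?_)
    obtain ⟨y, rfl⟩ := hj.2 x
    rw [← map_mul, ← map_mul, Subgroup.mem_center_iff.1 hc y]
  let χ' : φ.range →* Matrix.ProjectiveSpecialLinearGroup (Fin 2) F :=
    φ.rangeRestrict.liftOfSurjective φ.rangeRestrict_surjective ⟨χ, hker⟩
  have hχ' : ∀ g, χ' (φ.rangeRestrict g) = χ g := fun g =>
    MonoidHom.liftOfRightInverse_comp_apply _ _ _ _ _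
  let q : φ.range.comap f →* Matrix.ProjectiveSpecialLinearGroup (Fin 2) F :=
    χ'.comp (f.subgroupComap φ.range)
  have hq : Function.Surjective q := by
    intro x
    obtain ⟨g, rfl⟩ := hχs x
    obtain ⟨c, hc⟩ := hle g
    refine ⟨⟨c, Subgroup.mem_comap.2 (hc ▸ ⟨g, rfl⟩)⟩, ?_⟩
    rw [← hχ']
    exact congrArg χ' (Subtype.ext hc)
  have hR : (q.ker.map (φ.range.comap f).subtype).subgroupOf (φ.range.comap f) = q.ker :=
    Subgroup.comap_map_eq_self_of_injective (φ.range.comap f).subtype_injective _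
  haveI hn : ((q.ker.map (φ.range.comap f).subtype).subgroupOf (φ.range.comap f)).Normal := by
    rw [hR]; infer_instance
  exact ⟨φ.range.comap f, q.ker.map (φ.range.comap f).subtype, hn,
    ⟨(QuotientGroup.quotientMulEquivOfEq hR).trans
      (QuotientGroup.quotientKerEquivOfSurjective q hq)⟩⟩

end Cfsg.Agent.FixedQuad
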